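import Cfsg.Agent.DG.Defs

/-! Project DG: the induction for `p`-solvable groups. -/

namespace CL.DG

open Cfsg CL.Char CL.Blk CL.Grp Subgroup
open scoped Pointwise

universe u

variable {p : ℕ} [hp : Fact p.Prime] {M : Ideal AlgInt}

namespace Main

theorem image_conj {G : Type u} [Group G] (g : G) (B : Set (IrrCharacter G)) :
    irrEquiv (MulAut.conj g) '' B = B := by
  have h : ∀ χ : IrrCharacter G, irrEquiv (MulAut.conj g) χ = χ := fun χ => by
    ext x
    rw [irrEquiv_apply]
    exact χ.2.isClassFunction _ _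
  simp [h]

/-- conjugation maps the normaliser of `P` onto that of the conjugate -/
noncomputable def nEquiv {G : Type u} [Group G] (g : G) (P : Subgroup G) :
    normalizer (P : Set G) ≃* normalizer ((MulAut.conj g • P : Subgroup G) : Set G) :=
  (equivSMul (MulAut.conj g) _).trans
    (MulEquiv.subgroupCongr (Subgroup.map_equiv_normalizer_eq P (MulAut.conj g)))

theorem coe_nEquiv {G : Type u} [Group G] (g : G) (P : Subgroup G) (x : normalizer (P : Set G)) :
    (nEquiv g P x : G) = MulAut.conj g x := rfl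

end Main

open Main

theorem mainAt (hF : FongS.{u} p) (hR : FrS.{u} p) (hB : PibS.{u} p) (hM : IsPModular p M)
    (n : ℕ) : ∀ (G : Type u) [Group G] [Finite G], Nat.card G = n → IsPSolvable p G →
      MainAt p M G := by
  induction n using Nat.strong_induction_on with
  | _ n ih =>
  intro G _ _ hn hG B P hP hab c hc
  cases nonempty_fintype G
  have hBl := hc.2.1
  obtain ⟨χ, hχ⟩ := tr_nonempty hM hBl
  have hKp : ¬ p ∣ Nat.card (pPrimeCore p G) := not_dvd_card_pPrimeCore p G
  obtain ⟨θ, hθ⟩ := exists_over (pPrimeCore p G) χ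
  have hb := isPBlock_singleton_of_not_dvd_card hM hKp θ
  have hcov : Covers (pPrimeCore p G) B {θ} := hθ.covers hχ rfl
  by_cases hT : blockStab {θ} = (⊤ : Subgroup G)
  · have hinv := isInvSet_iff_blockStab_eq_top.2 hT
    obtain rfl := fong_eq_overSet hM (Loc.isPConstrained_of_isPSolvable hG) rfl hinv hBl hcov
    exact hF M hM G hG θ hinv P hP hab c hc
  · have hKT : pPrimeCore p G ≤ blockStab {θ} := le_blockStab _
    obtain ⟨B', hB', hc', rfl⟩ := fr_exists hM hb hKT rfl hBl hcov
    obtain ⟨D, hD⟩ := exists_isDefectGroup hM hB'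
    have hD' := fr_isDefectGroup hM hb hKT rfl hB' hc' hD
    obtain ⟨g, rfl⟩ := exists_conj_eq_of_isDefectGroup hM hBl hD' hP
    obtain ⟨c', hc'', -⟩ := existsUnique_isInducedBlock_normalizer hM hB' hD
    have hab' : ∀ x ∈ D, ∀ y ∈ D, x * y = y * x := fun x hx y hy => by
      have := hab _ (smul_mem_pointwise_smul _ (MulAut.conj g) _ (mem_map_of_mem _ hx)) _
        (smul_mem_pointwise_smul _ (MulAut.conj g) _ (mem_map_of_mem _ hy))
      rw [← smul_mul', ← smul_mul', smul_left_cancel_iff] at this
      exact Subtype.ext this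
    have h1 := ih _ (hn ▸ card_lt_of_ne_top hT) _ rfl (Loc.isPSolvable_subgroup hG _) B' D hD hab'
      c' hc''
    have h2 := (isInducedBlock_image (MulAut.conj g) (nEquiv g _) (coe_nEquiv g _)).2 hc
    rw [image_conj] at h2
    have h3 := hR M hM G _ hKp θ _ hKT rfl B' hB' hc' D hD c' hc'' h1 _ h2
    have h4 := ((hB M hM G _ _).1 _ h3).1
    cases nonempty_fintype (normalizer (((D.map (blockStab {θ}).subtype : Subgroup G)) : Set G))
    have h5 := (hB M hM _ G _).2.1 _ _ (nEquiv g _).symm h4
    rw [irrEquiv_symm_image_image] at h5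
    cases nonempty_fintype
      (normalizer ((MulAut.conj g • D.map (blockStab {θ}).subtype : Subgroup G) : Set G))
    exact ((hB M hM _ G _).1 _ h5).1

theorem s4643_of (hF : FongS.{u} p) (hR : FrS.{u} p) (hB : PibS.{u} p) (hM : IsPModular p M)
    {G : Type u} [Group G] [Finite G] (hG : IsPSolvable p G) {B : Set (IrrCharacter G)}
    {P : Subgroup G} (hP : IsDefectGroup p M B P) (hab : ∀ x ∈ P, ∀ y ∈ P, x * y = y * x)
    {c : Set (IrrCharacter (normalizer (P : Set G)))}
    (hc : IsInducedBlock M (normalizer (P : Set G)) c B) :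
    Nat.card c = Nat.card B ∧ blockRank p c = blockRank p B ∧
      ∃ I ε, IsPerfectIsometry p M c B I ε := by
  cases nonempty_fintype G
  have h := mainAt hF hR hB hM _ G rfl hG B P hP hab c hc
  obtain ⟨-, h1, h2⟩ := (hB M hM G _ c).1 B h
  exact ⟨h1, h2, h⟩

end CL.DG
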